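import Mathlib.RingTheory.Kaehler.Basic
import Mathlib.RingTheory.TensorProduct.Basic
import Mathlib.Algebra.BigOperators.Group.Finset.Basic

/-!
# Monomials in `1 ⊗ z_i - z_i ⊗ 1` span `B ⊗ B` modulo powers of the diagonal ideal
-/

set_option autoImplicit false
set_option linter.unusedSectionVars false

open TensorProduct

universe u

namespace Groth.Agent.Ega4late.H515.ZetaSpan

variable (A : Type u) {B : Type u} [CommRing A] [CommRing B] [Algebra A B]
variable {ι : Type} [Fintype ι] [DecidableEq ι] (z : ι → B)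

/-- `ζ_b = 1 ⊗ b - b ⊗ 1`. -/
noncomputable def ze (b : B) : B ⊗[A] B := (1 : B) ⊗ₜ[A] b - b ⊗ₜ[A] (1 : B)

/-- The monomial `ζ^q = ∏ (1 ⊗ z_i - z_i ⊗ 1)^{q_i}`. -/
noncomputable def zm (q : ι → ℕ) : B ⊗[A] B := ∏ i, ze A (z i) ^ q i

theorem ze_mem (b : B) : ze A b ∈ KaehlerDifferential.ideal A B :=
  KaehlerDifferential.one_smul_sub_smul_one_mem_ideal A b

theorem zm_mem (q : ι → ℕ) : zm A z q ∈ KaehlerDifferential.ideal A B ^ (∑ i, q i) := by
  rw [zm, ← Finset.prod_pow_eq_pow_sum]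
  exact Ideal.prod_mem_prod fun i _ => Ideal.pow_mem_pow (ze_mem A (z i)) (q i)

theorem zm_zero : zm A z 0 = 1 := by simp [zm]

theorem zm_single_mul (i : ι) (q : ι → ℕ) : ze A (z i) * zm A z q = zm A z (q + Pi.single i 1) := by
  rw [zm, zm]
  have : ze A (z i) = ∏ j, ze A (z j) ^ ((Pi.single i 1 : ι → ℕ) j) := by
    rw [Finset.prod_eq_single i]
    · simp
    · intro j _ hj
      rw [Pi.single_eq_of_ne hj, pow_zero]
    · intro h; exact absurd (Finset.mem_univ i) h
  rw [this, ← Finset.prod_mul_distrib]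
  refine Finset.prod_congr rfl fun j _ => ?_
  rw [← pow_add, Pi.add_apply, add_comm]
  
theorem sum_add_single (i : ι) (q : ι → ℕ) :
    ∑ j, (q + Pi.single i 1 : ι → ℕ) j = (∑ j, q j) + 1 := by
  simp [Finset.sum_add_distrib]

/-- The span of the monomials of degree in a set. -/
noncomputable def mspan (s : Set (ι → ℕ)) : Submodule B (B ⊗[A] B) :=
  Submodule.span B (zm A z '' s)

/-- powers of the diagonal ideal as `B`-submodules -/
noncomputable def Ipow (n : ℕ) : Submodule B (B ⊗[A] B) :=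
  (KaehlerDifferential.ideal A B ^ n).restrictScalars B

theorem mem_Ipow (n : ℕ) (x : B ⊗[A] B) : x ∈ Ipow A (B := B) n ↔ x ∈ KaehlerDifferential.ideal A B ^ n :=
  Iff.rfl

variable {z}

theorem ideal_le (hz : Submodule.span B (Set.range fun i => KaehlerDifferential.D A B (z i)) = ⊤)
    (x : B ⊗[A] B) (hx : x ∈ KaehlerDifferential.ideal A B) :
    ∃ c : ι → B, x - ∑ i, c i • ze A (z i) ∈ KaehlerDifferential.ideal A B ^ 2 := by
  have h : KaehlerDifferential.fromIdeal A B ⟨x, hx⟩ ∈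
      Submodule.span B (Set.range fun i => KaehlerDifferential.D A B (z i)) := by
    rw [hz]; trivial
  rw [Submodule.mem_span_range_iff_exists_fun] at h
  obtain ⟨c, hc⟩ := h
  refine ⟨c, ?_⟩
  have hmem : x - ∑ i, c i • ze A (z i) ∈ KaehlerDifferential.ideal A B := by
    refine Ideal.sub_mem _ hx (Ideal.sum_mem _ fun i _ => ?_)
    rw [Algebra.smul_def]
    exact Ideal.mul_mem_left _ _ (ze_mem A (z i))
  have h2 : KaehlerDifferential.fromIdeal A B ⟨x - ∑ i, c i • ze A (z i), hmem⟩ = 0 := by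
    have e : (⟨x - ∑ i, c i • ze A (z i), hmem⟩ : KaehlerDifferential.ideal A B) =
        ⟨x, hx⟩ - ∑ i, (algebraMap B (B ⊗[A] B) (c i)) •
          (⟨ze A (z i), ze_mem A (z i)⟩ : KaehlerDifferential.ideal A B) := by
      ext
      simp [Algebra.smul_def]
    rw [e, map_sub, map_sum]
    have e2 : ∀ i, KaehlerDifferential.fromIdeal A B
        ((algebraMap B (B ⊗[A] B) (c i)) • (⟨ze A (z i), ze_mem A (z i)⟩ : KaehlerDifferential.ideal A B)) =
          c i • KaehlerDifferential.D A B (z i) := by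
      intro i
      rw [map_smul, algebraMap_smul]
      rfl
    simp_rw [e2]
    rw [hc]
    exact sub_self _
  exact (Ideal.toCotangent_eq_zero _ _).1 h2

/-- Step: `I^k ⊆ span_B {ζ^q : |q| = k} + I^(k+1)`. -/
theorem Ipow_le (hz : Submodule.span B (Set.range fun i => KaehlerDifferential.D A B (z i)) = ⊤) (k : ℕ) :
    Ipow A k ≤ mspan A z {q | ∑ i, q i = k} ⊔ Ipow A (B := B) (k + 1) := by
  induction k with
  | zero =>
    intro x _
    have h1 : x - Algebra.TensorProduct.lmul' A x • (1 : B ⊗[A] B) ∈ Ipow A (B := B) 1 := by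
      rw [mem_Ipow, pow_one]
      change x - _ ∈ RingHom.ker _
      rw [RingHom.mem_ker, map_sub, sub_eq_zero, Algebra.smul_def, mul_one]
      simp
    rw [← sub_add_cancel x (Algebra.TensorProduct.lmul' A x • (1 : B ⊗[A] B))]
    refine add_mem (Submodule.mem_sup_right h1) (Submodule.mem_sup_left
      (Submodule.smul_mem _ _ (Submodule.subset_span ⟨(0 : ι → ℕ), ?_, zm_zero A z⟩)))
    simp
  | succ k ih =>
    intro x hx
    rw [mem_Ipow, pow_succ'] at hx
    refine Submodule.mul_induction_on hx ?_ fun _ _ h1 h2 => add_mem h1 h2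
    intro y hy w hw
    obtain ⟨s, hs, t, ht, rfl⟩ := Submodule.mem_sup.1 (ih hw)
    rw [mul_add]
    refine add_mem ?_ (Submodule.mem_sup_right ?_)
    · clear hw
      induction hs using Submodule.span_induction with
      | zero => rw [mul_zero]; exact zero_mem _
      | add a b _ _ ha hb => rw [mul_add]; exact add_mem ha hb
      | smul b a _ ha => rw [mul_smul_comm]; exact Submodule.smul_mem _ _ ha
      | mem m hm =>
        obtain ⟨q, hq, rfl⟩ := hm
        obtain ⟨c, hc⟩ := ideal_le A hz y hy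
        rw [← sub_add_cancel y (∑ i, c i • ze A (z i)), add_mul]
        refine add_mem (Submodule.mem_sup_right ?_) (Submodule.mem_sup_left ?_)
        · rw [mem_Ipow, show k + 1 + 1 = 2 + k by ring, pow_add]
          exact Ideal.mul_mem_mul hc (hq ▸ zm_mem A z q)
        · rw [Finset.sum_mul]
          refine Submodule.sum_mem _ fun i _ => ?_
          rw [smul_mul_assoc, zm_single_mul]
          refine Submodule.smul_mem _ _ (Submodule.subset_span ⟨_, ?_, rfl⟩)
          change ∑ j, (q + Pi.single i 1 : ι → ℕ) j = k + 1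
          rw [sum_add_single]
          exact congrArg (· + 1) hq
    · rw [mem_Ipow, pow_succ']
      exact Ideal.mul_mem_mul hy ht

/-- `I^m ⊆ span_B {ζ^q : m ≤ |q| < n} + I^n` for `m ≤ n`. -/
theorem Ipow_le_mspan (hz : Submodule.span B (Set.range fun i => KaehlerDifferential.D A B (z i)) = ⊤)
    (m n : ℕ) (hmn : m ≤ n) :
    Ipow A m ≤ mspan A z {q | m ≤ ∑ i, q i ∧ ∑ i, q i < n} ⊔ Ipow A (B := B) n := by
  induction n, hmn using Nat.le_induction with
  | base => exact le_sup_right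
  | succ n hmn ih =>
    refine ih.trans (sup_le (le_sup_of_le_left ?_) ((Ipow_le A hz n).trans ?_))
    · exact Submodule.span_mono (Set.image_mono fun q hq => ⟨hq.1, hq.2.trans (Nat.lt_succ_self _)⟩)
    · refine sup_le_sup_right (Submodule.span_mono (Set.image_mono ?_)) _
      rintro q rfl
      exact ⟨hmn, Nat.lt_succ_self _⟩

theorem top_le_mspan (hz : Submodule.span B (Set.range fun i => KaehlerDifferential.D A B (z i)) = ⊤)
    (n : ℕ) (x : B ⊗[A] B) :
    x ∈ mspan A z {q | ∑ i, q i ≤ n} ⊔ Ipow A (B := B) (n + 1) := by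
  have h := Ipow_le_mspan A hz 0 (n + 1) (Nat.zero_le _) (show x ∈ Ipow A (B := B) 0 by
    rw [mem_Ipow, pow_zero, Ideal.one_eq_top]; trivial)
  have h2 : mspan A z {q | 0 ≤ ∑ i, q i ∧ ∑ i, q i < n + 1} ≤ mspan A z {q | ∑ i, q i ≤ n} :=
    Submodule.span_mono (Set.image_mono fun q hq => Nat.lt_succ_iff.1 hq.2)
  exact sup_le_sup_right h2 _ h

/-- A `B`-linear map on `B ⊗ B` killing `I^(k+1)` is determined on `I^m` by the monomials `ζ^q`,
`m ≤ |q| ≤ k`. -/
theorem eq_zero_of_zm {N : Type u} [AddCommGroup N] [Module B N]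
    (hz : Submodule.span B (Set.range fun i => KaehlerDifferential.D A B (z i)) = ⊤)
    (f : B ⊗[A] B →ₗ[B] N) (k m : ℕ)
    (hk : ∀ x ∈ KaehlerDifferential.ideal A B ^ (k + 1), f x = 0)
    (hq : ∀ q : ι → ℕ, m ≤ ∑ i, q i → ∑ i, q i ≤ k → f (zm A z q) = 0)
    (x : B ⊗[A] B) (hx : x ∈ KaehlerDifferential.ideal A B ^ m) : f x = 0 := by
  rcases Nat.lt_or_ge (k + 1) m with h | h
  · exact hk x (Ideal.pow_le_pow_right h.le hx)
  · obtain ⟨s, hs, t, ht, rfl⟩ := Submodule.mem_sup.1 (Ipow_le_mspan A hz m (k + 1) h hx)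
    rw [map_add, hk t ht, add_zero]
    clear hx
    have : mspan A z {q | m ≤ ∑ i, q i ∧ ∑ i, q i < k + 1} ≤ LinearMap.ker f := by
      refine Submodule.span_le.2 ?_
      rintro _ ⟨q, ⟨h1, h2⟩, rfl⟩
      exact hq q h1 (Nat.lt_succ_iff.1 h2)
    exact this hs

end Groth.Agent.Ega4late.H515.ZetaSpan
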